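import Mathlib
import Cfsg.Prelude

set_option autoImplicit false

/-!
# `Z_p ≀ Z_p` as a homomorphic image of a `p`-group with an elementary abelian maximal subgroup
-/

namespace Cfsg.Agent.Helper3.WrImg

open Polynomial

theorem poly_id1 (p : ℕ) [Fact p.Prime] :
    (X - 1 : (ZMod p)[X]) ^ (p - 1) = ∑ i ∈ Finset.range p, X ^ i := by
  have hp : p.Prime := Fact.out
  have hne : (X - 1 : (ZMod p)[X]) ≠ 0 := by
    have h := Polynomial.X_sub_C_ne_zero (1 : ZMod p)
    rwa [Polynomial.C_1] at h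
  apply mul_left_cancel₀ hne
  rw [mul_geom_sum, ← pow_succ', Nat.sub_add_cancel hp.one_lt.le, sub_pow_char, one_pow]

theorem poly_id2 (p : ℕ) [Fact p.Prime] : (X - 1 : (ZMod p)[X]) ^ p = X ^ p - 1 := by
  rw [sub_pow_char, one_pow]

theorem codim_ge {p : ℕ} [Fact p.Prime] {M : Type*} [AddCommGroup M] [Module (ZMod p) M]
    [Finite M] (σ : M →ₗ[ZMod p] M) (hσ : σ ^ p = 1) (K : Submodule (ZMod p) M)
    (hK : ∀ k ∈ K, σ k ∈ K) (x : M) (hx : ∑ i ∈ Finset.range p, (σ ^ i) x ∉ K) :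
    Module.finrank (ZMod p) K + p ≤ Module.finrank (ZMod p) M := by
  have hp : p.Prime := Fact.out
  have e1 : (σ - 1) ^ (p - 1) = ∑ i ∈ Finset.range p, σ ^ i := by
    have h := congrArg (Polynomial.aeval σ) (poly_id1 p)
    simpa using h
  have e2 : (σ - 1) ^ p = 0 := by
    have h := congrArg (Polynomial.aeval σ) (poly_id2 p)
    simp only [map_pow, map_sub, Polynomial.aeval_X, map_one] at h
    rw [h, hσ, sub_self]
  obtain ⟨δ, hδ⟩ : ∃ δ : M →ₗ[ZMod p] M, δ = σ - 1 := ⟨_, rfl⟩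
  rw [← hδ] at e1 e2
  have hδK : ∀ k ∈ K, δ k ∈ K := by
    intro k hk
    rw [hδ]
    show σ k - k ∈ K
    exact K.sub_mem (hK k hk) hk
  have key : ∀ j, j ≤ p →
      Module.finrank (ZMod p) K + j ≤ Module.finrank (ZMod p) (K.comap (δ ^ j)) := by
    intro j
    induction j with
    | zero =>
      intro _
      rw [add_zero]
      apply Submodule.finrank_mono
      intro k hk
      show (δ ^ 0) k ∈ K
      rw [pow_zero]; exact hk
    | succ j ih =>
      intro hj
      have hlt : K.comap (δ ^ j) < K.comap (δ ^ (j + 1)) := by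
        refine lt_of_le_of_ne ?_ ?_
        · intro m hm
          show (δ ^ (j + 1)) m ∈ K
          rw [pow_succ', Module.End.mul_apply]
          exact hδK _ hm
        · intro heq
          have hw1 : (δ ^ (p - 1 - j)) x ∈ K.comap (δ ^ (j + 1)) := by
            show (δ ^ (j + 1)) ((δ ^ (p - 1 - j)) x) ∈ K
            rw [← Module.End.mul_apply, ← pow_add]
            have hjp : j + 1 + (p - 1 - j) = p := by omega
            rw [hjp, e2]
            exact K.zero_mem
          rw [← heq] at hw1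
          have hw2 : (δ ^ j) ((δ ^ (p - 1 - j)) x) ∈ K := hw1
          rw [← Module.End.mul_apply, ← pow_add] at hw2
          have hjp : j + (p - 1 - j) = p - 1 := by omega
          rw [hjp, e1, LinearMap.sum_apply] at hw2
          exact hx hw2
      have h1 := Submodule.finrank_lt_finrank_of_lt hlt
      have h2 := ih (by omega)
      omega
  have h1 := key p le_rfl
  have h2 := Submodule.finrank_le (K.comap (δ ^ p))
  omega

theorem core_card_add {p : ℕ} [Fact p.Prime] {M : Type*} [AddCommGroup M] [Module (ZMod p) M]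
    [Finite M] (σ : M →+ M) (hσ : ∀ m, (σ^[p]) m = m) (C : AddSubgroup M)
    (hC : ∀ c ∈ C, σ c ∈ C) (x : M) (hx : ∑ i ∈ Finset.range p, (σ^[i]) x ∉ C) :
    Nat.card C * p ^ p ≤ Nat.card M := by
  have hp : p.Prime := Fact.out
  obtain ⟨σL, hσL⟩ : ∃ σL : M →ₗ[ZMod p] M, ∀ m, σL m = σ m :=
    ⟨σ.toZModLinearMap p, fun m => rfl⟩
  have hiter : ∀ (i : ℕ) (m : M), (σL ^ i) m = (σ^[i]) m := by
    intro i
    induction i with
    | zero => intro m; rfl
    | succ i ih =>
      intro m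
      rw [pow_succ', Module.End.mul_apply, ih, hσL, Function.iterate_succ_apply']
  obtain ⟨K, hKmem⟩ : ∃ K : Submodule (ZMod p) M, ∀ m, m ∈ K ↔ m ∈ C :=
    ⟨AddSubgroup.toZModSubmodule p C, fun m => Iff.rfl⟩
  have h1 := codim_ge σL (LinearMap.ext fun m => by
      rw [hiter]; exact hσ m) K
    (fun k hk => by rw [hKmem, hσL]; exact hC _ ((hKmem k).1 hk)) x (by
      rw [hKmem]
      have hterm : ∀ i ∈ Finset.range p, (σL ^ i) x = (σ^[i]) x := fun i _ => hiter i x
      rw [Finset.sum_congr rfl hterm]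
      exact hx)
  have hcM : Nat.card M = p ^ Module.finrank (ZMod p) M := by
    rw [Module.natCard_eq_pow_finrank (K := ZMod p) (V := M), Nat.card_zmod]
  have hcK : Nat.card ↥K = p ^ Module.finrank (ZMod p) ↥K := by
    rw [Module.natCard_eq_pow_finrank (K := ZMod p) (V := ↥K), Nat.card_zmod]
  have hKC : Nat.card ↥K = Nat.card ↥C :=
    Nat.card_congr (Equiv.subtypeEquivRight (fun m => hKmem m))
  rw [← hKC, hcK, hcM, ← pow_add]
  exact Nat.pow_le_pow_right hp.pos h1

theorem exists_hyperplane_add {p : ℕ} [Fact p.Prime] {M : Type*} [AddCommGroup M]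
    [Module (ZMod p) M] [Finite M] (t : M) (ht : t ≠ 0) :
    ∃ f : M →+ ZMod p, Function.Surjective f ∧ f t ≠ 0 := by
  have h1 : ¬ ∀ φ : Module.Dual (ZMod p) M, φ t = 0 := fun h =>
    ht ((Module.forall_dual_apply_eq_zero_iff (ZMod p) t).1 h)
  push Not at h1
  obtain ⟨φ, hφ⟩ := h1
  refine ⟨φ.toAddMonoidHom, ?_, hφ⟩
  intro c
  refine ⟨(c / φ t) • t, ?_⟩
  show φ ((c / φ t) • t) = c
  rw [map_smul, smul_eq_mul, div_mul_cancel₀ _ hφ]

theorem add_exp {p : ℕ} {A' : Type*} [CommGroup A'] (hexp : ∀ a : A', a ^ p = 1)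
    (a : Additive A') : p • a = 0 := by
  show Additive.ofMul ((Additive.toMul a) ^ p) = 0
  rw [hexp]; rfl

theorem core_card {p : ℕ} [Fact p.Prime] {A' : Type*} [CommGroup A'] [Finite A']
    (hexp : ∀ a : A', a ^ p = 1) (σ₀ : A' →* A') (hσ : ∀ a, (σ₀^[p]) a = a)
    (C : Subgroup A') (hC : ∀ c ∈ C, σ₀ c ∈ C) (x : A')
    (hx : ∏ i ∈ Finset.range p, (σ₀^[i]) x ∉ C) : Nat.card C * p ^ p ≤ Nat.card A' := by
  have hit : ∀ (i : ℕ) (m : Additive A'),
      ((MonoidHom.toAdditive σ₀)^[i]) m = Additive.ofMul ((σ₀^[i]) (Additive.toMul m)) := by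
    intro i
    induction i with
    | zero => intro m; rfl
    | succ i ih =>
      intro m
      rw [Function.iterate_succ_apply', ih, Function.iterate_succ_apply']
      rfl
  have h := @core_card_add p _ (Additive A') _ (AddCommGroup.zmodModule (n := p) (add_exp hexp)) _
    (MonoidHom.toAdditive σ₀)
    (fun m => by rw [hit]; exact congrArg Additive.ofMul (hσ _))
    (Subgroup.toAddSubgroup C) (fun c hc => hC _ hc) (Additive.ofMul x) (by
      intro hmem
      apply hx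
      have hterm : ∀ i ∈ Finset.range p,
          ((MonoidHom.toAdditive σ₀)^[i]) (Additive.ofMul x) = Additive.ofMul ((σ₀^[i]) x) :=
        fun i _ => hit i _
      rw [Finset.sum_congr rfl hterm, ← ofMul_prod] at hmem
      exact hmem)
  exact h

theorem exists_hyperplane {p : ℕ} [Fact p.Prime] {A' : Type*} [CommGroup A'] [Finite A']
    (hexp : ∀ a : A', a ^ p = 1) (t : A') (ht : t ≠ 1) :
    ∃ f : A' →* Multiplicative (ZMod p), Function.Surjective f ∧ f t ≠ 1 := by
  obtain ⟨f, hfs, hft⟩ := @exists_hyperplane_add p _ (Additive A') _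
    (AddCommGroup.zmodModule (n := p) (add_exp hexp)) _ (Additive.ofMul t) (fun h => ht h)
  refine ⟨{ toFun := fun a => Multiplicative.ofAdd (f (Additive.ofMul a))
            map_one' := ?_
            map_mul' := ?_ }, ?_, ?_⟩
  · show Multiplicative.ofAdd (f (Additive.ofMul (1 : A'))) = 1
    rw [ofMul_one, map_zero]; rfl
  · intro a b
    show Multiplicative.ofAdd (f (Additive.ofMul (a * b))) =
      Multiplicative.ofAdd (f (Additive.ofMul a)) * Multiplicative.ofAdd (f (Additive.ofMul b))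
    rw [ofMul_mul, map_add]; rfl
  · intro c
    obtain ⟨m, hm⟩ := hfs (Multiplicative.toAdd c)
    refine ⟨Additive.toMul m, ?_⟩
    show Multiplicative.ofAdd (f m) = c
    rw [hm]; rfl
  · intro h
    exact hft h

theorem sylow_card_perm (p : ℕ) [Fact p.Prime] (Q : Sylow p (Equiv.Perm (Fin (p ^ 2)))) :
    Nat.card ↥(Q : Subgroup (Equiv.Perm (Fin (p ^ 2)))) = p ^ (p + 1) := by
  have hp : p.Prime := Fact.out
  rw [Sylow.card_eq_multiplicity, Nat.card_perm, Nat.card_fin, Nat.factorization_def _ hp,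
    padicValNat_factorial (b := 3) (by rw [Nat.log_pow hp.one_lt]; omega)]
  congr 1
  have h1 : Finset.Ico 1 3 = {1, 2} := by decide
  rw [h1, Finset.sum_pair (by norm_num)]
  have e1 : p ^ 2 / p ^ 1 = p := by
    rw [pow_one, pow_two]; exact Nat.mul_div_cancel _ hp.pos
  have e2 : p ^ 2 / p ^ 2 = 1 := Nat.div_self (pow_pos hp.pos 2)
  rw [e1, e2]

theorem wreath_image {P : Type*} [Group P] [Finite P] {p : ℕ} [Fact p.Prime] (hP : IsPGroup p P)
    (A : Subgroup P) [hAn : A.Normal] (hA : Cfsg.IsElementaryAbelian p A) (hidx : A.index = p)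
    (x y : P) (hx : x ∈ A)
    (hprod : ((List.range p).map (fun i => (y ^ i)⁻¹ * x * y ^ i)).prod ≠ 1) :
    ∃ (Q : Sylow p (Equiv.Perm (Fin (p ^ 2))))
      (f : P →* ↥(Q : Subgroup (Equiv.Perm (Fin (p ^ 2))))), Function.Surjective f := by
  have hp : p.Prime := Fact.out
  letI instC : CommGroup ↥A :=
    { (inferInstance : Group ↥A) with mul_comm := fun a b => hA.1.is_comm.comm a b }
  have hexp : ∀ a : ↥A, a ^ p = 1 := fun a => Subtype.ext (hA.2 a a.2)
  obtain ⟨σ₀, hσ₀⟩ : ∃ σ₀ : ↥A →* ↥A, ∀ a : ↥A, ((σ₀ a : ↥A) : P) = y⁻¹ * a * y :=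
    ⟨(MulAut.conjNormal y⁻¹ : MulAut ↥A).toMonoidHom, fun a => by
      show ((MulAut.conjNormal y⁻¹ a : ↥A) : P) = _
      rw [MulAut.conjNormal_apply, inv_inv]⟩
  have hiter : ∀ (i : ℕ) (a : ↥A), (((σ₀^[i]) a : ↥A) : P) = (y ^ i)⁻¹ * a * y ^ i := by
    intro i
    induction i with
    | zero => intro a; simp
    | succ i ih =>
      intro a
      rw [Function.iterate_succ_apply', hσ₀, ih, pow_succ]
      group
  have hyp : y ^ p ∈ A := by
    have h := Subgroup.pow_index_mem A y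
    rwa [hidx] at h
  have hσp : ∀ a : ↥A, (σ₀^[p]) a = a := by
    intro a
    apply Subtype.ext
    rw [hiter]
    have hc : (⟨y ^ p, hyp⟩ : ↥A) * a = a * ⟨y ^ p, hyp⟩ := mul_comm _ _
    have hc' : y ^ p * (a : P) = a * y ^ p := congrArg Subtype.val hc
    calc (y ^ p)⁻¹ * (a : P) * y ^ p = (y ^ p)⁻¹ * (y ^ p * (a : P)) := by rw [hc']; group
      _ = a := by group
  obtain ⟨t, ht⟩ : ∃ t : ↥A, t = ∏ i ∈ Finset.range p, (σ₀^[i]) ⟨x, hx⟩ := ⟨_, rfl⟩
  have hprodn : ∀ n : ℕ, ((∏ i ∈ Finset.range n, (σ₀^[i]) (⟨x, hx⟩ : ↥A) : ↥A) : P) =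
      ((List.range n).map (fun i => (y ^ i)⁻¹ * x * y ^ i)).prod := by
    intro n
    induction n with
    | zero => simp
    | succ n ih =>
      rw [Finset.prod_range_succ, Subgroup.coe_mul, ih, hiter, List.range_succ, List.map_append,
        List.prod_append]
      simp
  have ht1 : t ≠ 1 := by
    intro h
    apply hprod
    rw [← hprodn p, ← ht, h]
    rfl
  obtain ⟨f₀, hf₀s, hf₀t⟩ := exists_hyperplane hexp t ht1
  obtain ⟨HP, hHP⟩ : ∃ HP : Subgroup P, HP = f₀.ker.map A.subtype := ⟨_, rfl⟩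
  have hHPidx : HP.index = p ^ 2 := by
    rw [hHP, Subgroup.index_map_subtype, hidx, Subgroup.index_ker,
      MonoidHom.range_eq_top.2 hf₀s, Subgroup.card_top]
    have hc : Nat.card (Multiplicative (ZMod p)) = p := by
      show Nat.card (ZMod p) = p
      exact Nat.card_zmod p
    rw [hc, pow_two]
  obtain ⟨C₀, hC₀⟩ : ∃ C₀ : Subgroup P, C₀ = HP.normalCore := ⟨_, rfl⟩
  have hC₀n : C₀.Normal := by rw [hC₀]; exact Subgroup.normalCore_normal HP
  have hC₀HP : C₀ ≤ HP := by rw [hC₀]; exact Subgroup.normalCore_le HP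
  have hHPA : HP ≤ A := by rw [hHP]; exact Subgroup.map_subtype_le _
  have hC₀A : C₀ ≤ A := hC₀HP.trans hHPA
  have hcard := core_card hexp σ₀ hσp (C₀.subgroupOf A) (fun c hc => by
      rw [Subgroup.mem_subgroupOf] at hc ⊢
      rw [hσ₀]
      have h := hC₀n.conj_mem (c : P) hc y⁻¹
      rwa [inv_inv] at h) ⟨x, hx⟩ (by
      rw [← ht]
      intro hmem
      rw [Subgroup.mem_subgroupOf] at hmem
      have h1 := hC₀HP hmem
      rw [hHP] at h1
      obtain ⟨a, ha, hat⟩ := h1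
      have hat' : a = t := Subtype.ext hat
      rw [hat'] at ha
      exact hf₀t (MonoidHom.mem_ker.1 ha))
  have hcC : Nat.card ↥(C₀.subgroupOf A) = Nat.card ↥C₀ :=
    Nat.card_congr (Subgroup.subgroupOfEquivOfLe hC₀A).toEquiv
  rw [hcC] at hcard
  have hPA : Nat.card ↥A * p = Nat.card P := by rw [← hidx]; exact Subgroup.card_mul_index A
  have hPC : Nat.card ↥C₀ * C₀.index = Nat.card P := Subgroup.card_mul_index C₀
  have hC₀pos : 0 < Nat.card ↥C₀ := Nat.card_pos
  have hidxC : p ^ (p + 1) ≤ C₀.index := by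
    have h1 : Nat.card ↥C₀ * p ^ (p + 1) ≤ Nat.card ↥C₀ * C₀.index := by
      rw [hPC, ← hPA, pow_succ, ← mul_assoc]
      exact Nat.mul_le_mul_right p hcard
    exact Nat.le_of_mul_le_mul_left h1 hC₀pos
  have hcardq : Nat.card (P ⧸ HP) = p ^ 2 := hHPidx
  obtain ⟨e⟩ : Nonempty ((P ⧸ HP) ≃ Fin (p ^ 2)) := ⟨Finite.equivFinOfCardEq hcardq⟩
  obtain ⟨ψ, hψ⟩ : ∃ ψ : P →* Equiv.Perm (Fin (p ^ 2)),
      ψ = (Equiv.permCongrHom e).toMonoidHom.comp (MulAction.toPermHom P (P ⧸ HP)) := ⟨_, rfl⟩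
  have hker : ψ.ker = C₀ := by
    rw [hC₀, Subgroup.normalCore_eq_ker]
    ext g
    rw [MonoidHom.mem_ker, MonoidHom.mem_ker, hψ]
    show (Equiv.permCongrHom e) (MulAction.toPermHom P (P ⧸ HP) g) = 1 ↔ _
    exact map_eq_one_iff _ (Equiv.permCongrHom e).injective
  have hrange_card : Nat.card ↥ψ.range = C₀.index := by
    rw [← hker]; exact (Subgroup.index_ker ψ).symm
  have hrp : IsPGroup p ↥ψ.range := by
    rw [MonoidHom.range_eq_map]
    exact (hP.to_subgroup ⊤).map ψ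
  obtain ⟨Q, hQ⟩ := hrp.exists_le_sylow
  have hQc := sylow_card_perm p Q
  have hQe : ψ.range = (Q : Subgroup (Equiv.Perm (Fin (p ^ 2)))) :=
    Subgroup.eq_of_le_of_card_ge hQ (by rw [hQc, hrange_card]; exact hidxC)
  refine ⟨Q, ψ.codRestrict (Q : Subgroup (Equiv.Perm (Fin (p ^ 2)))) (fun g => hQ ⟨g, rfl⟩), ?_⟩
  intro q
  have hq : (q : Equiv.Perm (Fin (p ^ 2))) ∈ ψ.range := by rw [hQe]; exact q.2
  obtain ⟨g, hg⟩ := hq
  exact ⟨g, Subtype.ext hg⟩

end Cfsg.Agent.Helper3.WrImg
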